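import Cfsg.Agent.ClassicalGeometry.PSL2Basic
import Cfsg.Agent.SignalizersComponents.LayerBasic

/-!
# S5916: G3 (helper950): the subgroups of order 17 of `L₂(16)` are conjugate
-/

set_option autoImplicit false
set_option linter.style.haveILetI false

namespace Cfsg.Agent.H950.L16

open Matrix Subgroup

theorem sl17 {F : Type*} [Field F] [Fintype F] (hF : Fintype.card F = 16) {a b : SpecialLinearGroup (Fin 2) F}
    (ha : orderOf a = 17) (hb : orderOf b = 17) :
    ∃ (s : SpecialLinearGroup (Fin 2) F) (i : ℤ), b = s * a ^ i * s⁻¹ := by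
  classical
  haveI : Fact (Nat.Prime 17) := ⟨by norm_num⟩
  have hcard : Nat.card (SpecialLinearGroup (Fin 2) F) = 17 * (16 * 15) := by
    rw [ClassicalGeometry.PSL2Basic.card_SL2, hF]; norm_num
  have hfac : (Nat.card (SpecialLinearGroup (Fin 2) F)).factorization 17 = 1 := by
    rw [hcard, Nat.factorization_mul (by norm_num) (by norm_num), Nat.Prime.factorization (by norm_num)]
    simp only [Finsupp.add_apply, Finsupp.single_eq_same]
    rw [Nat.factorization_eq_zero_of_not_dvd (by norm_num)]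
  have key : ∀ {x : SpecialLinearGroup (Fin 2) F}, orderOf x = 17 →
      Nat.card (zpowers x) = 17 ^ (Nat.card (SpecialLinearGroup (Fin 2) F)).factorization 17 := by
    intro x hx
    rw [Nat.card_zpowers, hx, hfac]; norm_num
  set A : Sylow 17 (SpecialLinearGroup (Fin 2) F) := Sylow.ofCard _ (key ha) with hA
  set B : Sylow 17 (SpecialLinearGroup (Fin 2) F) := Sylow.ofCard _ (key hb) with hB
  obtain ⟨g, hg⟩ := MulAction.exists_smul_eq (SpecialLinearGroup (Fin 2) F) A B
  have h1 : b ∈ (B : Subgroup (SpecialLinearGroup (Fin 2) F)) := by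
    rw [hB]; exact mem_zpowers _
  rw [← hg] at h1
  have h2 : b ∈ ((A : Subgroup (SpecialLinearGroup (Fin 2) F))).map (MulAut.conj g).toMonoidHom := h1
  have h3 : (A : Subgroup (SpecialLinearGroup (Fin 2) F)) = zpowers a := by rw [hA]; rfl
  rw [h3] at h2
  obtain ⟨y, hy, hy2⟩ := mem_map.1 h2
  obtain ⟨j, rfl⟩ := mem_zpowers_iff.1 hy
  exact ⟨g, j, hy2.symm⟩

theorem psl17 {F : Type*} [Field F] [Fintype F] (hF : Fintype.card F = 16) {a b : ProjectiveSpecialLinearGroup (Fin 2) F}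
    (ha : orderOf a = 17) (hb : orderOf b = 17) :
    ∃ (s : ProjectiveSpecialLinearGroup (Fin 2) F) (i : ℤ), b = s * a ^ i * s⁻¹ := by
  classical
  have h2 : (2 : F) = 0 := by
    have : ((16 : ℕ) : F) = 0 := by
      rw [← hF]; exact Nat.cast_card_eq_zero F
    have h16 : (2 : F) ^ 4 = 0 := by
      rw [← this]; norm_num
    exact pow_eq_zero_iff (by norm_num) |>.1 h16
  have hZ : center (SpecialLinearGroup (Fin 2) F) = ⊥ :=
    Subgroup.eq_bot_of_card_eq _ (ClassicalGeometry.PSL2Basic.card_center_SL2_even h2)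
  have hinj : Function.Injective (QuotientGroup.mk' (center (SpecialLinearGroup (Fin 2) F))) := by
    rw [← MonoidHom.ker_eq_bot_iff, QuotientGroup.ker_mk', hZ]
  obtain ⟨a0, rfl⟩ := QuotientGroup.mk'_surjective _ a
  obtain ⟨b0, rfl⟩ := QuotientGroup.mk'_surjective _ b
  rw [orderOf_injective _ hinj] at ha hb
  obtain ⟨s, i, h⟩ := sl17 hF ha hb
  exact ⟨QuotientGroup.mk' _ s, i, by rw [h]; simp⟩

/-- the subgroups of order 17 of `L₂(16)` are conjugate -/
theorem conj17 {X : Type*} [Group X] {N : Subgroup X} [hN : N.Normal] {F : Type*} [Field F] [Fintype F]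
    (hF : Fintype.card F = 16) (e : ↥N ≃* ProjectiveSpecialLinearGroup (Fin 2) F) {y : X} (hy : y ∈ N)
    (h17 : orderOf y = 17) (h : X) : ∃ s ∈ N, ∃ i : ℤ, h * y * h⁻¹ = s * y ^ i * s⁻¹ := by
  have h1 : orderOf (e ⟨y, hy⟩) = 17 := by
    rw [MulEquiv.orderOf_eq, ← h17]; exact Subgroup.orderOf_mk _ _
  have h2 : orderOf (e ⟨h * y * h⁻¹, hN.conj_mem _ hy h⟩) = 17 := by
    rw [MulEquiv.orderOf_eq, Subgroup.orderOf_mk, ← h17]
    exact (MulAut.conj h).orderOf_eq y
  obtain ⟨s, i, hs⟩ := psl17 hF h1 h2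
  refine ⟨(e.symm s : N), (e.symm s).2, i, ?_⟩
  have h3 := congrArg e.symm hs
  rw [e.symm_apply_apply, map_mul, map_mul, map_inv, map_zpow, e.symm_apply_apply] at h3
  have h4 := congrArg Subtype.val h3
  simpa using h4

/-- **G3** -/
theorem G3 {X : Type*} [Group X] {F : Type*} [Field F] [Fintype F] (hF : Fintype.card F = 16) (H : Subgroup X)
    (e : ↥(Cfsg.generalizedFittingSubgroup ↥H) ≃* Matrix.ProjectiveSpecialLinearGroup (Fin 2) F)
    (y : ↥H) (hy : y ∈ Cfsg.generalizedFittingSubgroup ↥H) (h17 : orderOf y = 17) (h : ↥H) :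
    ∃ s ∈ Cfsg.generalizedFittingSubgroup ↥H, ∃ i : ℤ, h * y * h⁻¹ = s * y ^ i * s⁻¹ :=
  haveI := SignalizersComponents.LayerBasic.generalizedFittingSubgroup_normal ↥H
  conj17 hF e hy h17 h

end Cfsg.Agent.H950.L16
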