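import Cfsg.Agent.H950.L16.Data
import Cfsg.Agent.H939.L64.Base
import Cfsg.Agent.H955.L64.Irr

/-!
# S5916 (`L₂(16)` in `E₈(2)`), helper950: stabilisers of `H`-stable subspaces
-/

set_option autoImplicit false
set_option maxRecDepth 100000
set_option linter.unusedSectionVars false

namespace Cfsg.Agent.H950.L16

open Matrix Cfsg Cfsg.Lie
open Cfsg.Agent.H939.L64 (KK E2 LK L2 em aK rE rE_apply rE_mul rE_one rE_inv_self rE_self_inv rEq rEq_apply fixS brK
  rE_brK em_injective rE_inj finrank_LK frE frE_apply frE_smul frE_rE)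
open Cfsg.Agent.H942.E8Tab

/-- a power of `y` commuting with an involution inverting `y` -/
theorem zp_two {G : Type*} [Group G] {y t g : G} (h5 : t⁻¹ = t) (h3 : t * y * t = y⁻¹) (h9 : y ^ 17 = 1)
    (hg : g ∈ Subgroup.zpowers y) (hc : Commute g t) : g = 1 := by
  obtain ⟨i, rfl⟩ := Subgroup.mem_zpowers_iff.1 hg
  have h6 : t * y ^ i * t = (y ^ i)⁻¹ := by
    have h7 : t * y ^ i * t⁻¹ = (t * y * t⁻¹) ^ i := (conj_zpow).symm
    rw [h5, h3] at h7
    rw [h7]
    exact _root_.inv_zpow y i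
  have h4 : t * t = 1 := by
    nth_rw 1 [← h5]
    exact inv_mul_cancel t
  have h7 : t * y ^ i * t = y ^ i := by
    rw [← hc.eq, mul_assoc, h4, mul_one]
  rw [h7] at h6
  have h8 : y ^ i * y ^ i = 1 := by
    nth_rw 2 [h6]
    exact mul_inv_cancel _
  have h10 : (y ^ i) ^ 17 = 1 := by
    rw [← zpow_natCast, ← _root_.zpow_mul, mul_comm, _root_.zpow_mul, zpow_natCast, h9, _root_.one_zpow]
  have h11 : (y ^ i) ^ 17 = (y ^ i * y ^ i) ^ 8 * y ^ i := by
    rw [← pow_two, ← pow_mul, ← pow_succ]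
  rw [h10, h8, one_pow, one_mul] at h11
  exact h11.symm

variable {F : Type} [Field F] [Fintype F] {H : Subgroup E2}
  {f : SpecialLinearGroup (Fin 2) F →* E2} {y : SpecialLinearGroup (Fin 2) F}

theorem mem_fix {v : LK} : v ∈ fixS (rE.comp f) ↔ ∀ s, rE (f s) v = v := Iff.rfl

theorem fix_stable (S : Sit H f y) {h : E2} (hh : h ∈ H) {v : LK} (hv : v ∈ fixS (rE.comp f)) :
    rE h v ∈ fixS (rE.comp f) := by
  intro s
  show rE (f s) (rE h v) = rE h v
  obtain ⟨τ, hτ⟩ := S.nor h hh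
  have h1 : f s * h = h * f (τ.symm s) := by
    have := hτ (τ.symm s)
    rw [MulEquiv.apply_symm_apply] at this
    rw [this, inv_mul_cancel_right]
  rw [← rE_mul, h1, rE_mul, mem_fix.1 hv]

theorem torus_contra (S : Sit H f y) {z t t' : ↥(chevE8.group KK)} {g : E2}
    (ht : t ∈ Cfsg.Agent.KFacts.RgdChevCoord.TT chevE8 KK) (ht' : t' ∈ Cfsg.Agent.KFacts.RgdChevCoord.TT chevE8 KK)
    (hy : em (f y) = z * t * z⁻¹) (hg : em g = z * t' * z⁻¹) (hn : g ∉ Subgroup.zpowers (f y)) (hgH : g ∈ H) :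
    False := by
  apply hn
  apply S.cen g hgH
  have h1 : t' * t = t * t' := Cfsg.Agent.BpExc.TorChev.TT_comm e8T t' ht' t ht
  show g * f y = f y * g
  apply em_injective
  rw [map_mul, map_mul, hy, hg]
  calc z * t' * z⁻¹ * (z * t * z⁻¹) = z * (t' * t) * z⁻¹ := by group
    _ = z * (t * t') * z⁻¹ := by rw [h1]
    _ = _ := by group

/-- stabilisers -/
theorem mem_of_stab (S : Sit H f y) {A : Submodule KK LK} (h0 : A ≠ ⊥) (h1 : A ≠ ⊤)
    (hH : ∀ h ∈ H, ∀ v ∈ A, rE h v ∈ A) {g : E2} (hg : ∀ v ∈ A, rE g v ∈ A) : g ∈ H := by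
  have key : ∀ x : E2, (∀ v ∈ A, rE x v ∈ A) → ∀ v ∈ A, rE x⁻¹ v ∈ A := by
    intro x hx v hv
    have h2 : A.map (rEq x).toLinearMap = A := by
      apply Submodule.eq_of_le_of_finrank_eq
      · rintro _ ⟨w, hw, rfl⟩
        exact hx w hw
      · exact LinearEquiv.finrank_map_eq (rEq x) A
    rw [← h2] at hv
    obtain ⟨w, hw, rfl⟩ := hv
    show rE x⁻¹ (rE x w) ∈ A
    rw [rE_inv_self]
    exact hw
  let K : Subgroup E2 :=
    { carrier := {x | ∀ v ∈ A, rE x v ∈ A}
      mul_mem' := fun {a b} ha hb v hv => by rw [rE_mul]; exact ha _ (hb v hv)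
      one_mem' := fun v hv => by rw [rE_one]; exact hv
      inv_mem' := fun {a} ha => key a ha }
  by_contra hgH
  have h2 : H < K := by
    refine lt_of_le_of_ne hH fun h => hgH ?_
    rw [h]
    exact hg
  have h3 := S.co.2 K h2
  rcases Cfsg.Agent.H955.L64.IRR A (fun x v hv => (by rw [h3]; trivial : x ∈ K) v hv) with h4 | h4
  · exact h0 h4
  · exact h1 h4

/-- pointwise stabilisers -/
theorem mem_of_fix (S : Sit H f y) {W : Submodule KK LK} (h0 : W ≠ ⊥) (hf : ∀ s, ∀ w ∈ W, rE (f s) w = w)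
    (hst : ∀ h ∈ H, ∀ w ∈ W, rE h w ∈ W) {g : E2} (hg : ∀ w ∈ W, rE g w = w) : g ∈ H := by
  let K : Subgroup E2 :=
    { carrier := {x | ∀ w ∈ W, rE x w = w}
      mul_mem' := fun {a b} ha hb v hv => by rw [rE_mul, hb v hv, ha v hv]
      one_mem' := fun v hv => rE_one v
      inv_mem' := fun {a} ha v hv => by
        have := ha v hv
        conv_lhs => rw [← this]
        exact rE_inv_self a v }
  have hmem : ∀ x, x ∈ K ↔ ∀ w ∈ W, rE x w = w := fun x => Iff.rfl
  have hK : K ≤ H := by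
    apply Cfsg.Agent.H955.L64.G2 S.co
    · intro h hh
      have key : ∀ h ∈ H, ∀ k ∈ K, h * k * h⁻¹ ∈ K := by
        intro h hh k hk w hw
        rw [rE_mul, rE_mul, hk _ (hst _ (H.inv_mem hh) w hw), rE_self_inv]
      rw [Subgroup.mem_normalizer_iff]
      intro k
      constructor
      · exact key h hh k
      · intro hk
        have := key _ (H.inv_mem hh) _ hk
        have e : h⁻¹ * (h * k * h⁻¹) * h⁻¹⁻¹ = k := by group
        rwa [e] at this
    · intro hb
      have h1 : f y ∈ K := fun w hw => hf y w hw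
      rw [hb, Subgroup.mem_bot, ← map_one f] at h1
      have h2 := S.inj h1
      have h3 := S.ord
      rw [h2, orderOf_one] at h3
      omega
    · obtain ⟨w, hw, hw0⟩ := (Submodule.ne_bot_iff W).1 h0
      exact ⟨w, hw0, fun k hk => hk w hw⟩
  exact hK hg

/-- the fixed space of the socle is proper -/
theorem fix_ne_top (S : Sit H f y) : fixS (rE.comp f) ≠ ⊤ := by
  intro h
  have h1 : f y = 1 := rE_inj fun v => by
    have h3 : v ∈ fixS (rE.comp f) := by rw [h]; trivial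
    exact h3 y
  rw [← map_one f] at h1
  have h2 := S.inj h1
  have h3 := S.ord
  rw [h2, orderOf_one] at h3
  omega

/-- **END GAME**: if the socle fixes a non-zero vector then every element fixing `V ^ S` pointwise (or stabilising it) is in `H` -/
theorem mem_of_stab_fix (S : Sit H f y) (h0 : fixS (rE.comp f) ≠ ⊥) {g : E2}
    (hg : ∀ v ∈ fixS (rE.comp f), rE g v ∈ fixS (rE.comp f)) : g ∈ H :=
  mem_of_stab S h0 (fix_ne_top S) (fun _ hh _ hv => fix_stable S hh hv) hg

/-- an element commuting with the socle is trivial as soon as it stabilises a proper non-zero `H`-stable subspace -/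
theorem eq_one_of_comm (S : Sit H f y) {A : Submodule KK LK} (h0 : A ≠ ⊥) (h1 : A ≠ ⊤)
    (hH : ∀ h ∈ H, ∀ v ∈ A, rE h v ∈ A) {g : E2} (hg : ∀ v ∈ A, rE g v ∈ A) (hc : ∀ s, Commute g (f s)) : g = 1 :=
  S.tri g (mem_of_stab S h0 h1 hH hg) hc

/-- an element commuting with `f y` and stabilising a proper non-zero `H`-stable subspace is a power of `f y` -/
theorem mem_zpowers_of_comm (S : Sit H f y) {A : Submodule KK LK} (h0 : A ≠ ⊥) (h1 : A ≠ ⊤)
    (hH : ∀ h ∈ H, ∀ v ∈ A, rE h v ∈ A) {g : E2} (hg : ∀ v ∈ A, rE g v ∈ A) (hc : Commute g (f y)) :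
    g ∈ Subgroup.zpowers (f y) :=
  S.cen g (mem_of_stab S h0 h1 hH hg) hc

/-- the same with an element commuting with the inverting involution: `g = 1` -/
theorem eq_one_of_comm_two (S : Sit H f y) {t0 : SpecialLinearGroup (Fin 2) F} (ht : t0 * y * t0 = y⁻¹)
    (ht2 : t0 * t0 = 1) {A : Submodule KK LK} (h0 : A ≠ ⊥) (h1 : A ≠ ⊤)
    (hH : ∀ h ∈ H, ∀ v ∈ A, rE h v ∈ A) {g : E2} (hg : ∀ v ∈ A, rE g v ∈ A) (hc : Commute g (f y))
    (hc2 : Commute g (f t0)) : g = 1 := by
  have h10 := mem_zpowers_of_comm S h0 h1 hH hg hc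
  have h3 : f t0 * f y * f t0 = (f y)⁻¹ := by rw [← map_mul, ← map_mul, ht, map_inv]
  have h4 : f t0 * f t0 = 1 := by rw [← map_mul, ht2, map_one]
  have h5 : (f t0)⁻¹ = f t0 := inv_eq_of_mul_eq_one_left h4
  have h9 : f y ^ 17 = 1 := by rw [← map_pow, ← S.ord, pow_orderOf_eq_one, map_one]
  exact zp_two h5 h3 h9 h10 hc2

end Cfsg.Agent.H950.L16
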